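import Cfsg.Agent.H6.N1

set_option autoImplicit false
open Matrix Subgroup

namespace Cfsg.Agent.C7.MitB

open H6.M3

variable {F : Type*} [Field F] {ζ : F} {Γ : Type*} [Group Γ] {ρ : PR Γ F}

theorem gs (hζ : IsPrimitiveRoot ζ 7) (s : ℕ) :
    ∑ k ∈ Finset.range 7, (ζ ^ s) ^ k = if s % 7 = 0 then 7 else 0 := by
  split_ifs with h
  · rw [pow_eq_pow_mod _ hζ.pow_eq_one, h]; simp
  · exact (hζ.pow_of_coprime s ((Nat.Prime.coprime_iff_not_dvd (by norm_num)).2
      fun e => h (Nat.mod_eq_zero_of_dvd e)).symm).geom_sum_eq_zero (by norm_num)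

/-- exponents -/
def ex : Fin 3 → ℕ := ![1, 4, 2]
/-- opposite exponents -/
def ex' : Fin 3 → ℕ := ![6, 3, 5]

theorem comm (hζ : IsPrimitiveRoot ζ 7) (h7 : (7 : F) ≠ 0) {d m w : Γ}
    (hd : ρ.L d (diagonal fun i => ζ ^ ex i)) (hm : ρ.L m !![0, 0, -1; 1, 0, 0; 0, -1, 0])
    {W : Mt F} (hw : ρ.L w W) (hW : ∀ i j, W i j ≠ 0) {A : Subgroup Γ} (hA : A.Normal)
    (hc : ∀ a ∈ A, ∀ b ∈ A, ∀ X Y, ρ.L a X → ρ.L b Y → X * Y = Y * X) : A = ⊥ := by
  have cj : ∀ {g : Γ} {P P' Z : Mt F}, ρ.L g P → P * P' = 1 →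
      (∀ b ∈ A, ∀ Y, ρ.L b Y → Z * Y = Y * Z) →
      ∀ b ∈ A, ∀ Y, ρ.L b Y → P * Z * P' * Y = Y * (P * Z * P') := by
    intro g P P' Z hg hP hZ b hb Y hY
    have hP' := mul_eq_one_comm.1 hP
    have := hZ _ (hA.conj_mem b hb g⁻¹) _ (ρ.conj (ρ.inv hg hP) hP' hY)
    calc P * Z * P' * Y = P * (Z * (P' * Y * P)) * P' := by
          simp only [mul_assoc, hP, mul_one]
      _ = (P * P') * Y * (P * Z * P') := by rw [this]; simp only [mul_assoc]
      _ = _ := by rw [hP, one_mul]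
  have dg : ∀ a ∈ A, ∀ X, ρ.L a X → ∀ i j, i ≠ j → X i j = 0 := by
    intro a ha X hX
    have h1 : ∀ j : ℕ, ∀ b ∈ A, ∀ Y, ρ.L b Y →
        (of fun a b => (if (j + ex a + ex' b) % 7 = 0 then 7 else 0) * X a b) * Y =
        Y * of fun a b => (if (j + ex a + ex' b) % 7 = 0 then 7 else 0) * X a b := by
      intro j b hb Y hY
      have e : (of fun a b => (if (j + ex a + ex' b) % 7 = 0 then 7 else 0) * X a b) =
          ∑ k ∈ Finset.range 7, (ζ ^ j) ^ k • ((diagonal fun i => ζ ^ ex i) ^ k * X *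
            (diagonal fun i => ζ ^ ex' i) ^ k) := by
        ext a b
        rw [of_apply, ← gs hζ, Finset.sum_mul, Matrix.sum_apply]
        refine Finset.sum_congr rfl fun k _ => ?_
        simp only [diagonal_pow, Matrix.smul_apply, mul_diagonal, diagonal_mul, Pi.pow_apply, smul_eq_mul]
        ring
      rw [e, Finset.sum_mul, Finset.mul_sum]
      refine Finset.sum_congr rfl fun k _ => ?_
      rw [smul_mul_assoc, mul_smul_comm, cj (ρ.pow hd k) ?_ (fun b hb Y hY => hc a ha b hb X Y hX hY)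
        b hb Y hY]
      rw [diagonal_pow, diagonal_pow, diagonal_mul_diagonal, ← diagonal_one]
      congr 1
      ext i
      simp only [Pi.pow_apply]
      rw [← mul_pow, ← pow_add, show ex i + ex' i = 7 by fin_cases i <;> rfl, hζ.pow_eq_one, one_pow]
    have h2 := fun j => cj (P' := !![0, 1, 0; 0, 0, -1; -1, 0, 0]) hm
      (by simp [one_fin_three]) (h1 j) a ha X hX
    obtain ⟨a, b, c, d, e, f, g, h, i, rfl⟩ := ex9 X
    have k1 := h2 1
    have k2 := h2 2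
    have k3 := h2 3
    have k4 := h2 4
    have k5 := h2 5
    have k6 := h2 6
    simp only [eq9, mul_apply, Fin.sum_univ_three, of_apply] at k1 k2 k3 k4 k5 k6
    simp [ex, ex', h7] at k1 k2 k3 k4 k5 k6
    intro x y hxy
    fin_cases x <;> fin_cases y <;> simp at hxy ⊢ <;> grind
  rw [eq_bot_iff]
  intro a ha
  obtain ⟨X, hX⟩ := ρ.ex a
  obtain ⟨W', h1, h2⟩ := exists_inv (ρ.det hw)
  have k1 := dg a ha X hX
  have k2 := dg _ (hA.conj_mem a ha w) _ (ρ.conj hw h1 hX)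
  have k3 : W * X * W' * W = W * X := by rw [mul_assoc, h2, mul_one]
  generalize W * X * W' = Y at k2 k3
  have k4 : ∀ j, X j j = Y 0 0 := fun j => by
    have := congrFun (congrFun k3 0) j
    rw [mul_apply, mul_apply, Finset.sum_eq_single 0 (fun b _ hb => by rw [k2 0 b hb.symm, zero_mul])
      (by simp), Finset.sum_eq_single j (fun b _ hb => by rw [k1 b j hb, mul_zero]) (by simp),
      mul_comm] at this
    exact (mul_left_cancel₀ (hW 0 j) this).symm
  refine (ρ.eq_one_iff hX).2 ⟨Y 0 0, ?_⟩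
  ext i j
  by_cases h : i = j
  · simp [h, k4]
  · simp [h, k1 i j h]

theorem ns [Finite Γ] (hζ : IsPrimitiveRoot ζ 7) (h7 : (7 : F) ≠ 0) (h3 : (3 : F) ≠ 0) {d m w : Γ}
    (hd : ρ.L d (diagonal fun i => ζ ^ ex i)) (hm : ρ.L m !![0, 0, -1; 1, 0, 0; 0, -1, 0])
    {W : Mt F} (hw : ρ.L w W) (hW : ∀ i j, W i j ≠ 0) (hd7 : d ^ 7 = 1)
    (hc : ∀ x, x * d = d * x → x ^ 14 = 1) : NS Γ := by
  classical
  intro A hA hab
  let R : Subgroup Γ :=
    { carrier := {a | a ∈ A ∧ ∀ b ∈ A, ∀ X Y, ρ.L a X → ρ.L b Y → X * Y = Y * X}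
      one_mem' := ⟨one_mem _, fun b _ X Y hX _ => by
        obtain ⟨c, rfl⟩ := (ρ.eq_one_iff hX).1 rfl; simp⟩
      mul_mem' := fun ⟨h1, h2⟩ ⟨h3, h4⟩ => ⟨mul_mem h1 h3, fun b hb X Y hX hY => by
        obtain ⟨P, Q, hP, hQ, rfl⟩ := ρ.split hX
        rw [mul_assoc, h4 b hb Q Y hQ hY, ← mul_assoc, h2 b hb P Y hP hY, mul_assoc]⟩
      inv_mem' := fun {a} ⟨h1, h2⟩ => ⟨inv_mem h1, fun b hb X Y hX hY => by
        obtain ⟨X', e1, e2⟩ := exists_inv (ρ.det hX)
        have := h2 b hb X' Y (by simpa using ρ.inv hX e1) hY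
        calc X * Y = X * (Y * X') * X := by rw [mul_assoc, mul_assoc, e2, mul_one]
          _ = _ := by rw [← this, ← mul_assoc, e1, one_mul]⟩ }
  have hR : R = ⊥ := comm hζ h7 hd hm hw hW
    ⟨fun a ⟨h1, h2⟩ g => ⟨hA.conj_mem a h1 g, fun b hb X Y hX hY => by
      obtain ⟨P, hP⟩ := ρ.ex g
      obtain ⟨P', e1, e2⟩ := exists_inv (ρ.det hP)
      have := h2 _ (hA.conj_mem b hb g⁻¹) _ _
        (by simpa [mul_assoc] using ρ.conj (ρ.inv hP e1) e2 hX) (ρ.conj (ρ.inv hP e1) e2 hY)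
      have e3 : ∀ Z : Mt F, P * (P' * Z) = Z := fun Z => by rw [← mul_assoc, e1, one_mul]
      simp only [mul_assoc, e3] at this
      have e4 := congrArg (fun Z => P * Z * P') this
      simpa only [mul_assoc, e3, e1, mul_one] using e4⟩⟩
    fun a ha b hb X Y hX hY => ha.2 b hb.1 X Y hX hY
  have tw : ∀ a ∈ A, ∀ b ∈ A, ∀ X Y, ρ.L a X → ρ.L b Y → ∃ c : F, c ^ 3 = 1 ∧ Y * X = c • (X * Y) := by
    intro a ha b hb X Y hX hY
    obtain ⟨c, hc⟩ := ρ.uniq (ρ.mul hX hY) (hab a ha b hb ▸ ρ.mul hY hX)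
    refine ⟨c, mul_right_cancel₀ (ρ.det (ρ.mul hX hY)) ?_, hc⟩
    have := congrArg det hc
    rw [det_smul, det_mul_comm] at this
    simpa using this.symm
  have e3 : ∀ a ∈ A, a ^ 3 = 1 := fun a ha => by
    rw [← mem_bot, ← hR]
    refine ⟨pow_mem ha 3, fun b hb X Y hX hY => ?_⟩
    obtain ⟨P, hP⟩ := ρ.ex a
    obtain ⟨t, rfl⟩ := ρ.uniq (ρ.pow hP 3) hX
    obtain ⟨c, c3, hc⟩ := tw a ha b hb P Y hP hY
    have : Y * P ^ 3 = c ^ 3 • (P ^ 3 * Y) := by
      simp only [pow_succ, pow_zero, one_mul, ← mul_assoc]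
      rw [hc, smul_mul_assoc, mul_assoc P, hc, mul_smul_comm, smul_mul_assoc, smul_mul_assoc,
        ← mul_assoc P, mul_assoc (P * P), hc, mul_smul_comm, smul_smul, smul_smul, ← mul_assoc]
    rw [smul_mul_assoc, mul_smul_comm, this, c3, one_smul]
  have t0 : ∀ a ∈ A, a ≠ 1 → ∀ X, ρ.L a X → X.trace = 0 := fun a ha h1 X hX => by
    by_contra ht
    apply h1
    rw [← mem_bot, ← hR]
    refine ⟨ha, fun b hb X' Y hX' hY => ?_⟩
    obtain ⟨t, rfl⟩ := ρ.uniq hX hX'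
    obtain ⟨c, -, hc⟩ := tw a ha b hb X Y hX hY
    obtain ⟨Y', e1, e2⟩ := exists_inv (ρ.det hY)
    have := congrArg (fun Z => trace (Z * Y')) hc
    simp only [smul_mul_assoc, trace_smul, smul_eq_mul] at this
    rw [trace_mul_cycle, e2, one_mul, mul_assoc, e1, mul_one] at this
    rw [smul_mul_assoc, mul_smul_comm, hc,
      mul_right_cancel₀ ht (this.symm.trans (one_mul _).symm), one_smul]
  have := Fintype.ofFinite A
  choose L hL using ρ.ex
  have li : LinearIndependent F fun a : A => L a := linearIndependent_iff'.2 fun s g hg b hb => by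
    obtain ⟨Y', e1, e2⟩ := exists_inv (ρ.det (hL b))
    have := congrArg (fun Z => trace (Y' * Z)) hg
    simp only [Finset.mul_sum, mul_smul_comm, trace_sum, trace_smul, mul_zero, trace_zero,
      smul_eq_mul] at this
    rw [Finset.sum_eq_single b (fun a _ hab => by
      rw [t0 _ (b⁻¹ * a).2 (fun e => hab (Subtype.ext (inv_mul_eq_one.1 e).symm)) _
        (ρ.mul (ρ.inv (hL b) e1) (hL a)), mul_zero]) (fun h => absurd hb h), e2] at this
    simpa [h3] using this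
  have c9 : Fintype.card A ≤ 9 := by simpa [Module.finrank_matrix] using li.fintype_card_le_finrank
  let σ : Function.End A := (MulAction.toEndHom (M := MulAut A) (α := A)) (MulAut.conjNormal d)
  have : Fact (Nat.Prime 7) := ⟨by norm_num⟩
  have hm7 := Equiv.Perm.card_fixedPoints_modEq (f := σ) (p := 7) (n := 1) (by
    simp only [σ]
    rw [← map_pow, ← map_pow, pow_one, hd7, map_one, map_one])
  have hf : Fintype.card (Function.fixedPoints σ) = 1 := Fintype.card_eq_one_iff.2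
    ⟨⟨1, map_one (MulAut.conjNormal d : MulAut A)⟩, fun ⟨x, hx⟩ => by
      have h1 : d * x * d⁻¹ = x := congrArg Subtype.val hx
      have h2 := hc x (mul_inv_eq_iff_eq_mul.1 h1).symm
      have h4 := e3 x x.2
      apply Subtype.ext
      apply Subtype.ext
      calc (x : Γ) = (x : Γ) ^ (3 * 5) * ((x : Γ) ^ 14)⁻¹ := by group
        _ = 1 := by rw [pow_mul, h4, h2]; simp⟩
  replace hm7 : Fintype.card A ≡ 1 [MOD 7] := by
    rw [← hf]
    convert hm7
  by_contra hne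
  obtain ⟨x, hx, hx1⟩ := A.bot_or_exists_ne_one.resolve_left hne
  have : Fact (Nat.Prime 3) := ⟨by norm_num⟩
  have h9 := orderOf_dvd_card (x := (⟨x, hx⟩ : A))
  rw [orderOf_eq_prime (Subtype.ext (e3 x hx)) fun e => hx1 (congrArg Subtype.val e)] at h9
  unfold Nat.ModEq at hm7
  omega

end Cfsg.Agent.C7.MitB
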