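import Cfsg.Agent.C7.MitA
import Cfsg.Agent.C7.MitB

set_option autoImplicit false
open Matrix Subgroup

set_option maxHeartbeats 1000000
namespace Cfsg.Agent.C7

namespace Mit

open H6.M3 hiding Mt

variable {F : Type*} [Field F] {ζ : F} {G : Subgroup (GL (Fin 7) F)}

theorem sym {y : Mt F} (h : y * mT F = mT F * y) (i j : Fin 7) : y (-i) (-j) = y i j := by
  have := congrFun (congrFun h (-i)) j
  simp only [mul_apply, mT, of_apply, mul_ite, ite_mul, mul_one, mul_zero, one_mul, zero_mul,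
    Finset.sum_ite_eq', Finset.mem_univ, if_true, neg_inj, Finset.sum_ite_eq] at this
  exact this

theorem comm_T {y : Mt F} (h : ∀ i j : Fin 7, y (-i) (-j) = y i j) : y * mT F = mT F * y := by
  ext i j
  obtain ⟨i, rfl⟩ := neg_surjective i
  simp only [mul_apply, mT, of_apply, mul_ite, ite_mul, mul_one, mul_zero, one_mul, zero_mul,
    Finset.sum_ite_eq', Finset.mem_univ, if_true, neg_inj, Finset.sum_ite_eq]
  exact h i j

theorem r3_mul (x : Mt F) {y : Mt F} (h : y * mT F = mT F * y) : r3 (x * y) = r3 x * r3 y := by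
  have s := sym h
  have e : ∀ j : Fin 7, y 0 (-j) = y 0 j ∧ y 6 (-j) = y 1 j ∧ y 5 (-j) = y 2 j ∧ y 4 (-j) = y 3 j ∧
      y 3 (-j) = y 4 j ∧ y 2 (-j) = y 5 j ∧ y 1 (-j) = y 6 j :=
    fun j => ⟨s 0 j, s 1 j, s 2 j, s 3 j, s 4 j, s 5 j, s 6 j⟩
  have e1 : y 0 6 = y 0 1 ∧ y 6 6 = y 1 1 ∧ y 5 6 = y 2 1 ∧ y 4 6 = y 3 1 ∧
      y 3 6 = y 4 1 ∧ y 2 6 = y 5 1 ∧ y 1 6 = y 6 1 := e 1
  have e2 : y 0 5 = y 0 2 ∧ y 6 5 = y 1 2 ∧ y 5 5 = y 2 2 ∧ y 4 5 = y 3 2 ∧
      y 3 5 = y 4 2 ∧ y 2 5 = y 5 2 ∧ y 1 5 = y 6 2 := e 2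
  have e3 : y 0 4 = y 0 3 ∧ y 6 4 = y 1 3 ∧ y 5 4 = y 2 3 ∧ y 4 4 = y 3 3 ∧
      y 3 4 = y 4 3 ∧ y 2 4 = y 5 3 ∧ y 1 4 = y 6 3 := e 3
  ext i j
  fin_cases i <;> fin_cases j <;>
    simp [r3, mul_apply, Fin.sum_univ_seven, Fin.sum_univ_three, e1, e2, e3] <;> ring

theorem r3_smul (c : F) (y : Mt F) : r3 (c • y) = c • r3 y := by
  ext i j; simp [r3, mul_sub]

theorem r3_one : r3 (1 : Mt F) = 1 := by
  ext i j; fin_cases i <;> fin_cases j <;> simp [r3]

theorem r3_T : r3 (mT F) = -1 := by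
  ext i j; fin_cases i <;> fin_cases j <;> simp +decide [r3, mT]

theorem TT : mT F * mT F = 1 := by
  ext i j
  simp only [mul_apply, mT, of_apply, mul_ite, mul_one, mul_zero, Finset.sum_ite_eq',
    Finset.mem_univ, if_true, neg_neg, one_apply]

theorem T_ne (c : F) : mT F ≠ c • 1 := fun e => by
  have := congrFun (congrFun e 1) 6
  simp +decide [mT] at this

theorem pw (hζ : IsPrimitiveRoot ζ 7) {a b : ℕ} (h : a % 7 = b % 7) : ζ ^ a = ζ ^ b := by
  rw [pow_eq_pow_mod a hζ.pow_eq_one, h, ← pow_eq_pow_mod b hζ.pow_eq_one]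

theorem dT (hζ : IsPrimitiveRoot ζ 7) : mD ζ * mT F = mT F * mD ζ := comm_T fun i j => by
  simp only [mD, diagonal_apply, neg_inj]
  split_ifs
  · exact pw hζ ((by decide : ∀ i : Fin 7, ((-i : Fin 7) : ℕ) ^ 2 % 7 = (i : ℕ) ^ 2 % 7) i)
  · rfl

theorem wT (hζ : IsPrimitiveRoot ζ 7) : mW ζ * mT F = mT F * mW ζ := comm_T fun i j =>
  pw hζ (by revert i j; decide)

theorem mT_comm : mM F * mT F = mT F * mM F := by rw [← mM_pow, ← pow_succ, ← pow_succ']

theorem wsq (hζ : IsPrimitiveRoot ζ 7) : mW ζ * mW ζ = (7 : F) • mT F := by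
  ext i j
  have := MitB.gs hζ (i + j)
  rw [Finset.sum_range] at this
  simp only [mul_apply, mW, of_apply, Matrix.smul_apply, mT, smul_eq_mul, mul_ite, mul_one, mul_zero]
  rw [if_congr ((by decide : ∀ i j : Fin 7, i = -j ↔ ((i : ℕ) + j) % 7 = 0) i j) rfl rfl, ← this]
  exact Finset.sum_congr rfl fun k _ => by ring

theorem r3_d (hζ : IsPrimitiveRoot ζ 7) : r3 (mD ζ) = diagonal fun i => ζ ^ MitB.ex i := by
  ext i j
  fin_cases i <;> fin_cases j <;> simp [r3, mD, MitB.ex]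
  exact pw hζ rfl

theorem r3_m : r3 (mM F * mM F) = !![0, 0, -1; 1, 0, 0; 0, -1, 0] := by
  rw [r3_mul _ mT_comm]
  have : r3 (mM F) = !![0, -1, 0; 0, 0, 1; 1, 0, 0] := by
    ext i j; fin_cases i <;> fin_cases j <;> simp +decide [r3, mM]
  rw [this]; simp

theorem r3_w (hζ : IsPrimitiveRoot ζ 7) (i j : Fin 3) : r3 (mW ζ) i j ≠ 0 := fun e => by
  simp only [r3, mW, of_apply, sub_eq_zero] at e
  rw [pow_eq_pow_mod _ hζ.pow_eq_one, pow_eq_pow_mod (_ * (6 - _)) hζ.pow_eq_one] at e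
  have := hζ.pow_inj (Nat.mod_lt _ (by norm_num)) (Nat.mod_lt _ (by norm_num)) e
  clear e; revert i j; decide

theorem d7 (hζ : IsPrimitiveRoot ζ 7) : mD ζ ^ 7 = 1 := by
  rw [mD, diagonal_pow, ← diagonal_one]
  congr 1; ext i
  rw [Pi.pow_apply, ← pow_mul, mul_comm, pow_mul, hζ.pow_eq_one, one_pow]

theorem tr_d (hζ : IsPrimitiveRoot ζ 7) (h7 : (7 : F) ≠ 0) : (mD ζ).trace ≠ 0 := fun e => by
  have h1 := hζ.geom_sum_eq_zero (by norm_num)
  have h2 := hζ.pow_eq_one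
  simp only [mD, trace_diagonal, Fin.sum_univ_seven] at e
  simp only [Finset.sum_range_succ, Finset.range_zero, Finset.sum_empty] at h1
  norm_num at e
  rw [pw hζ (a := 9) (b := 2) rfl, pw hζ (a := 16) (b := 2) rfl, pw hζ (a := 25) (b := 4) rfl,
    pw hζ (a := 36) (b := 1) rfl] at e
  apply h7
  grind

/-- an element centralising `d` modulo `Z⟨t⟩` has scalar fourteenth power -/
theorem cen14 (h : Ctx ζ G) (h7 : (7 : F) ≠ 0) (hD : DG G) (hG : GM ζ G) {y : Mt F} (hy : In G y)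
    {c : F} (e : y * mD ζ = c • (1 : Mt F) * (mD ζ * y) ∨ y * mD ζ = c • mT F * (mD ζ * y)) :
    ∃ e : F, y ^ 14 = e • 1 := by
  obtain ⟨y', -, h1, h2⟩ := hy.exists_inv
  have hc : y * mD ζ = mD ζ * y := by
    rcases e with e | e
    · have := congrArg (fun z => trace (z * y')) e
      simp only [smul_mul_assoc, one_mul, mul_assoc, h1, mul_one, trace_smul, smul_eq_mul] at this
      rw [← mul_assoc, trace_mul_cycle, h2, one_mul] at this
      rw [e, mul_right_cancel₀ (tr_d h.prim h7) (this.symm.trans (one_mul _).symm), one_smul,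
        one_mul]
    · exfalso
      have e1 : y * mD ζ * y' = c • (mT F * mD ζ) := by
        rw [e]; simp only [smul_mul_assoc, mul_assoc, h1, mul_one]
      have e2 : (y * mD ζ * y') ^ 7 = y * mD ζ ^ 7 * y' := by
        simp only [pow_succ, pow_zero, one_mul, mul_assoc, ← mul_assoc y' y, h2]
      rw [e1, d7 h.prim, mul_one, h1, smul_pow, (show Commute (mT F) (mD ζ) from
        (dT h.prim).symm).mul_pow, d7 h.prim, mul_one, show mT F ^ 7 = mT F by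
          simp only [pow_succ, pow_zero, one_mul, TT]] at e2
      have := congrFun (congrFun e2 0) 0
      have h4 := congrFun (congrFun e2 1) 6
      simp +decide [mT] at this h4
      simp [h4] at this
  have z : ∀ i j : Fin 7, j ≠ i → j ≠ -i → y i j = 0 := fun i j a b => by
    have := congrFun (congrFun hc i) j
    rw [mD, mul_diagonal, diagonal_mul, mul_comm, ← sub_eq_zero, ← sub_mul, mul_eq_zero,
      sub_eq_zero, pow_eq_pow_mod _ h.prim.pow_eq_one,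
      pow_eq_pow_mod ((i : ℕ) ^ 2) h.prim.pow_eq_one] at this
    refine this.resolve_left fun e => ?_
    exact (by decide : ∀ i j : Fin 7, j ≠ i → j ≠ -i → (j : ℕ) ^ 2 % 7 ≠ (i : ℕ) ^ 2 % 7) i j a b
      (h.prim.pow_inj (Nat.mod_lt _ (by norm_num)) (Nat.mod_lt _ (by norm_num)) e)
  have hdg : y * y = diagonal fun i => (y * y) i i := by
    ext i j
    by_cases hij : i = j
    · simp [hij]
    rw [diagonal_apply_ne _ hij, mul_apply]
    refine Finset.sum_eq_zero fun k _ => ?_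
    by_cases a : k = i
    · subst a
      by_cases b : j = -k
      · subst b
        rcases hG y hy hc k (by rintro rfl; simp at hij) with q | q <;> simp [q]
      · rw [z k j (Ne.symm hij) b, mul_zero]
    by_cases b : k = -i
    · subst b
      by_cases b : j = -i
      · subst b
        rcases hG y hy hc i (by rintro rfl; simp at hij) with q | q <;> simp [q]
      · rw [z (-i) j b (by simpa using Ne.symm hij), mul_zero]
    · rw [z i k a b, zero_mul]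
  obtain ⟨e, he⟩ := hD _ (hdg ▸ hy.mul hy)
  refine ⟨e, ?_⟩
  rw [show 14 = 2 * 7 from rfl, pow_mul, pow_two, hdg, diagonal_pow, smul_one_eq_diagonal]
  congr 1; ext i; exact he i

variable (G) in
/-- the part of the centraliser of `t` inducing elements of `PSL₃` -/
def C0 : Subgroup (GL (Fin 7) F) where
  carrier := {y | y ∈ G ∧ y.1 * mT F = mT F * y.1 ∧ ∃ c : F, (r3 y.1).det = c ^ 3}
  one_mem' := ⟨one_mem _, by simp, 1, by simp [r3_one]⟩
  mul_mem' := fun ⟨h1, h2, c, h3⟩ ⟨k1, k2, e, k3⟩ => ⟨mul_mem h1 k1, by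
    rw [Units.val_mul, mul_assoc, k2, ← mul_assoc, h2, mul_assoc], c * e, by
    rw [Units.val_mul, r3_mul _ k2, det_mul, h3, k3, mul_pow]⟩
  inv_mem' := fun {y} ⟨h1, h2, c, h3⟩ => ⟨inv_mem h1, (Commute.units_inv_left h2 :), c⁻¹, by
    have := congrArg det (r3_mul (y⁻¹).1 h2)
    rw [Units.inv_mul, r3_one, det_one, det_mul, h3] at this
    rw [inv_pow]; exact eq_inv_of_mul_eq_one_left this.symm⟩

variable (G) in
/-- the representation on the odd vectors -/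
def rr : C0 G →* H6.M3.Mt F where
  toFun y := r3 y.1.1
  map_one' := r3_one
  map_mul' x y := r3_mul _ y.2.2.1

theorem rr_inv (y : C0 G) : rr G y * rr G y⁻¹ = 1 := by rw [← map_mul, mul_inv_cancel, map_one]

variable (G) in
/-- the kernel of the projective representation -/
def Kz : Subgroup (C0 G) where
  carrier := {y | ∃ c : F, rr G y = c • 1}
  one_mem' := ⟨1, by simp⟩
  mul_mem' := fun ⟨c, h⟩ ⟨e, k⟩ => ⟨c * e, by rw [map_mul, h, k, smul_mul_smul_comm, one_mul]⟩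
  inv_mem' := fun {y} ⟨c, h⟩ => ⟨c⁻¹, by
    have := rr_inv y
    rw [h, smul_mul_assoc, one_mul] at this
    have hc : c ≠ 0 := fun e => by simp [e] at this
    rw [← this, inv_smul_smul₀ hc]⟩

instance : (Kz G).Normal := ⟨fun y ⟨c, h⟩ g => ⟨c, by
  rw [map_mul, map_mul, h, mul_smul_comm, mul_one, smul_mul_assoc, rr_inv]⟩⟩

theorem sq_mem {y : GL (Fin 7) F} (hy : y ∈ G) (ht : y.1 * mT F = mT F * y.1) {c : F}
    (h : r3 y.1 * r3 y.1 = c • 1) : y ∈ C0 G := by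
  have h0 : (r3 y.1).det ≠ 0 := (det_of_mul (show r3 (y⁻¹).1 * r3 y.1 = 1 by
    rw [← r3_mul _ ht, Units.inv_mul, r3_one])).2
  have h1 := congrArg det h
  rw [det_mul, det_smul, det_one, mul_one, Fintype.card_fin] at h1
  have hc : c ≠ 0 := fun e => h0 (by simpa [e] using h1)
  exact ⟨hy, ht, (r3 y.1).det / c, by rw [div_pow, ← h1]; field_simp⟩

end Mit

open Mit H6.M3

theorem mit {F : Type*} [Field F] [Fintype F] {ζ : F} {G : Subgroup (GL (Fin 7) F)} {p : ℕ}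
    (hF : FH F p) (hp : p ≠ 2) (h : Ctx ζ G) (hD : DG G) (hG : GM ζ G) (hK : K3 G) :
    UI G ∧ CO G := by
  classical
  have hζ := h.prim
  have hne : ∀ l : ℕ, l.Prime → l = 3 ∨ l = 7 → (l : F) ≠ 0 := fun l hl h37 => by
    have := hF.2.1
    rw [Ne, CharP.cast_eq_zero_iff F p, Nat.prime_dvd_prime_iff_eq hF.1 hl]
    have := hF.2.2
    omega
  have h7 : (7 : F) ≠ 0 := by exact_mod_cast hne 7 (by norm_num) (Or.inr rfl)
  have h3 : (3 : F) ≠ 0 := by exact_mod_cast hne 3 (by norm_num) (Or.inl rfl)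
  let ρ : PR (C0 G ⧸ Kz G) F := PR.ofHom (rr G) (QuotientGroup.mk' _)
    (QuotientGroup.mk'_surjective _) fun x => QuotientGroup.eq_one_iff x
  have hL : ∀ x : C0 G, ρ.L x (rr G x) := fun x => PR.ofHom_L x
  have hsl : ρ.SLr := fun g => by
    induction g using QuotientGroup.induction_on with
    | H x =>
    obtain ⟨c, hc⟩ := x.2.2.2
    have h0 : c ≠ 0 := fun e => ρ.det (hL x) (by rw [show (rr G x).det = _ from hc, e]; simp)
    refine ⟨c⁻¹ • rr G x, ρ.smul (hL x) (inv_ne_zero h0), ?_⟩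
    rw [det_smul, Fintype.card_fin, show (rr G x).det = _ from hc, ← mul_pow, inv_mul_cancel₀ h0,
      one_pow]
  have hk : ∀ x : C0 G, (x : C0 G ⧸ Kz G) = 1 → ∃ c : F, x.1.1 = c • 1 ∨ x.1.1 = c • mT F :=
    fun x hx => hK _ ⟨_, x.2.1, rfl⟩ x.2.2.1 ((QuotientGroup.eq_one_iff x).1 hx)
  obtain ⟨d, hd, ed⟩ := h.d
  obtain ⟨w, hw, ew⟩ := h.w
  obtain ⟨m, hm, em⟩ := h.m.mul h.m
  have hd0 : d ∈ C0 G := ⟨hd, ed ▸ dT hζ, 1, by
    rw [ed, r3_d hζ, det_diagonal, Fin.prod_univ_three, ← pow_add, ← pow_add, one_pow]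
    exact hζ.pow_eq_one⟩
  have hw0 : w ∈ C0 G := sq_mem hw (ew ▸ wT hζ) (c := -7) (by
    rw [ew, ← r3_mul _ (wT hζ), wsq hζ, r3_smul, r3_T]; simp)
  have hm0 : m ∈ C0 G := ⟨hm, by rw [em, mul_assoc, mT_comm, ← mul_assoc, mT_comm, mul_assoc], 1, by
    rw [em, r3_m, dm3]; simp⟩
  have Ld : ρ.L (⟨d, hd0⟩ : C0 G) (diagonal fun i => ζ ^ MitB.ex i) := by
    rw [← r3_d hζ, ← ed]; exact hL ⟨d, hd0⟩
  have Lm : ρ.L (⟨m, hm0⟩ : C0 G) !![0, 0, -1; 1, 0, 0; 0, -1, 0] := by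
    rw [← r3_m, ← em]; exact hL ⟨m, hm0⟩
  have Lw : ρ.L (⟨w, hw0⟩ : C0 G) (r3 (mW ζ)) := by rw [← ew]; exact hL ⟨w, hw0⟩
  have c14 : ∀ y ∈ G, ∀ k : C0 G, (k : C0 G ⧸ Kz G) = 1 → y * d = k * (d * y) →
      ∃ e : F, y.1 ^ 14 = e • 1 := fun y hy k hk1 e => by
    obtain ⟨c, hc⟩ := hk k hk1
    have e' := congrArg Units.val e
    simp only [Units.val_mul, ed] at e'
    exact cen14 h h7 hD hG ⟨y, hy, rfl⟩ (c := c) (hc.imp (fun q => by rw [← q]; exact e')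
      fun q => by rw [← q]; exact e')
  have hd7 : ((⟨d, hd0⟩ : C0 G) : C0 G ⧸ Kz G) ^ 7 = 1 := ρ.inj (by
    have := hL (⟨d, hd0⟩ ^ 7)
    rwa [show rr G (⟨d, hd0⟩ ^ 7) = r3 (d.1 ^ 7) from rfl, ed, d7 hζ, r3_one] at this)
  have hns : NS (C0 G ⧸ Kz G) := MitB.ns hζ h7 h3 Ld Lm Lw (r3_w hζ) hd7 fun x hx => by
    induction x using QuotientGroup.induction_on with
    | H y =>
    obtain ⟨e, he⟩ := c14 y y.2.1 (y * ⟨d, hd0⟩ * (⟨d, hd0⟩ * y)⁻¹) (by
      simp only [QuotientGroup.mk_mul, QuotientGroup.mk_inv, hx, mul_inv_cancel]) (by simp [mul_assoc])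
    refine ρ.eq_one (c := e) ?_
    have := hL (y ^ 14)
    rwa [show rr G (y ^ 14) = r3 (y.1.1 ^ 14) from rfl, he, r3_smul, r3_one] at this
  have : Fact (Nat.Prime 7) := ⟨by norm_num⟩
  obtain ⟨g1, g2⟩ := mitA hF hp hns hsl (d := (⟨d, hd0⟩ : C0 G)) (m := (⟨m, hm0⟩ : C0 G))
    (orderOf_eq_prime hd7 fun e => by
      obtain ⟨c, hc⟩ := (ρ.eq_one_iff Ld).1 e
      have a0 := congrFun (congrFun hc 0) 0
      have a1 := congrFun (congrFun hc 1) 1
      simp only [diagonal_apply_eq, Matrix.smul_apply, one_apply_eq] at a0 a1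
      have := hζ.pow_inj (by decide) (by decide) (a0.trans a1.symm)
      revert this; decide)
    (Or.inl ((ρ.conj_iff Lm Ld (ρ.pow Ld 2)).2 ⟨1, by
      have := pw hζ (a := 8) (b := 1) rfl
      simp only [eq9, diagonal_pow, one_smul, mul_diagonal, diagonal_mul, Pi.pow_apply, ← pow_mul]
      simp [MitB.ex, this]⟩))
  refine ⟨?_, fun N hN hNt hNn ho => ?_⟩
  · rintro _ ⟨y, hy, rfl⟩ ht ⟨c, hc⟩
    have hy0 : y ∈ C0 G := sq_mem hy ht (c := c) (by rw [← r3_mul _ ht, hc, r3_smul, r3_one])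
    by_contra hn
    have o2 : ∀ (z : C0 G) (c : F), r3 (z.1.1 * z.1.1) = c • 1 → (z : C0 G ⧸ Kz G) ≠ 1 →
        orderOf (z : C0 G ⧸ Kz G) = 2 := fun z c e hz =>
      orderOf_eq_prime (by rw [pow_two]; exact ρ.eq_one (c := c) (e ▸ hL (z * z))) hz
    obtain ⟨g, hg⟩ := isConj_iff.1 (g1 _ _
      (o2 ⟨y, hy0⟩ c (by rw [hc, r3_smul, r3_one]) fun e => hn (hk _ e))
      (o2 ⟨w, hw0⟩ (-7) (by rw [ew, wsq hζ, r3_smul, r3_T]; simp) fun e => by
        obtain ⟨c, hc⟩ := (ρ.eq_one_iff Lw).1 e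
        exact r3_w hζ 0 1 (by simp [hc])))
    induction g using QuotientGroup.induction_on with
    | H g =>
    obtain ⟨e, he⟩ := hk ((g * ⟨y, hy0⟩ * g⁻¹)⁻¹ * ⟨w, hw0⟩) (by
      simp only [QuotientGroup.mk_mul, QuotientGroup.mk_inv, hg, inv_mul_cancel])
    have hz := (g * ⟨y, hy0⟩ * g⁻¹).2.2.1
    have z2 : (g * ⟨y, hy0⟩ * g⁻¹).1.1 * (g * ⟨y, hy0⟩ * g⁻¹).1.1 = c • 1 := by
      simp only [Subgroup.coe_mul, Subgroup.coe_inv, Units.val_mul, mul_assoc,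
        Units.inv_mul_cancel_left]
      rw [← mul_assoc y.1, hc]; simp
    have e1 : mW ζ = (g * ⟨y, hy0⟩ * g⁻¹).1.1 *
        ((g * ⟨y, hy0⟩ * g⁻¹)⁻¹ * ⟨w, hw0⟩ : C0 G).1.1 := by
      rw [← Units.val_mul, ← Subgroup.coe_mul, mul_inv_cancel_left, ew]
    generalize (g * ⟨y, hy0⟩ * g⁻¹).1.1 = z at hz z2 e1
    have e2 : (7 : F) • mT F = (e * e * c) • 1 := by
      rw [← wsq hζ, e1]
      rcases he with he | he <;> rw [he]
      · simp [z2, smul_smul, mul_assoc]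
      · simp only [mul_smul_comm, smul_mul_assoc]
        rw [mul_assoc, ← mul_assoc (mT F), ← hz, mul_assoc, TT, mul_one, z2, smul_smul, smul_smul]
    exact T_ne ((7 : F)⁻¹ * (e * e * c)) (by rw [mul_smul, ← e2, inv_smul_smul₀ h7])
  · have hp' : ∀ n ∈ N, n ^ (center (GL (Fin 7) F)).relIndex N ∈ center (GL (Fin 7) F) :=
      fun n hn => pow_relIndex_mem _ hn
    have hb := g2 ((N.subgroupOf (C0 G)).map (QuotientGroup.mk' _))
      (Normal.map ⟨fun n hn (g : C0 G) => hNn g.1 g.2.1 g.2.2.1 n.1 hn⟩ _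
        (QuotientGroup.mk'_surjective _)) (by
        rw [← Nat.not_even_iff_odd, even_iff_two_dvd]
        intro h2
        obtain ⟨⟨_, n, hn, rfl⟩, hx⟩ := exists_prime_orderOf_dvd_card' 2 h2
        obtain ⟨c, hc⟩ := (MitA.gl_center _).1 (hp' n hn)
        have : (n : C0 G ⧸ Kz G) ^ (center (GL (Fin 7) F)).relIndex N = 1 :=
          ρ.eq_one (c := c) (by
            have := hL (n ^ (center (GL (Fin 7) F)).relIndex N)
            rwa [show rr G (n ^ _) = r3 (n.1 ^ _).1 from rfl, hc, r3_smul, r3_one] at this)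
        rw [← orderOf_coe] at hx
        have h4 := orderOf_dvd_of_pow_eq_one this
        erw [hx] at h4
        exact (Nat.not_even_iff_odd.2 ho) (even_iff_two_dvd.2 h4))
    have hb' : ∀ n : C0 G, n.1 ∈ N → (n : C0 G ⧸ Kz G) = 1 := fun n hn => by
      rw [← mem_bot, ← hb]; exact ⟨n, hn, rfl⟩
    intro n hn
    have ht := hNt n hn
    have hi : r3 n.1 * r3 (n⁻¹).1 = 1 := by
      rw [← r3_mul _ (hNt _ (inv_mem hn)), Units.mul_inv, r3_one]
    have k1 : n * (d * n⁻¹ * d⁻¹) ∈ N := mul_mem hn (hNn d hd hd0.2.1 _ (inv_mem hn))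
    have k2 : n * (d * n⁻¹ * d⁻¹) ∈ C0 G := ⟨hN k1, hNt _ k1, 1, by
      have hi' := congrArg det hi
      have hj := congrArg det (rr_inv ⟨d, hd0⟩)
      rw [det_mul, det_one] at hi' hj
      rw [Units.val_mul, r3_mul _ (hNt _ (hNn d hd hd0.2.1 _ (inv_mem hn))), Units.val_mul,
        r3_mul _ (inv_mem hd0).2.1, Units.val_mul, r3_mul _ (hNt _ (inv_mem hn)), det_mul, det_mul,
        det_mul]
      have hj' : (r3 d.1).det * (r3 (d⁻¹).1).det = 1 := hj
      linear_combination (r3 d.1).det * (r3 (d⁻¹).1).det * hi' + hj'⟩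
    obtain ⟨e, he⟩ := c14 n (hN hn) ⟨_, k2⟩ (hb' _ k1) (by simp [mul_assoc])
    have k3 : n ^ 3 ∈ C0 G := ⟨pow_mem (hN hn) 3, hNt _ (pow_mem hn 3), (r3 n.1).det, by
      simp only [pow_succ, pow_zero, one_mul, Units.val_mul, r3_mul _ ht, det_mul]⟩
    obtain ⟨c, hc⟩ := hk ⟨_, k3⟩ (hb' _ (pow_mem hn 3))
    have k6 : n ^ 6 ∈ center (GL (Fin 7) F) := (MitA.gl_center _).2 ⟨c * c, by
      rw [show 6 = 3 + 3 from rfl, pow_add, Units.val_mul]
      rcases hc with hc | hc <;> rw [show (n ^ 3).1 = _ from hc, smul_mul_smul_comm] <;> simp [TT]⟩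
    have k14 : n ^ 14 ∈ center (GL (Fin 7) F) := (MitA.gl_center _).2 ⟨e, he⟩
    obtain ⟨k, hk'⟩ := ho
    have k2' : n ^ 2 ∈ center (GL (Fin 7) F) := by
      have := mul_mem k14 (inv_mem (pow_mem k6 2))
      rwa [show n ^ 14 * ((n ^ 6) ^ 2)⁻¹ = n ^ 2 by group] at this
    have := mul_mem (inv_mem (pow_mem k2' k)) (hp' n hn)
    rwa [hk', show ((n ^ 2) ^ k)⁻¹ * n ^ (2 * k + 1) = n by group] at this

end Cfsg.Agent.C7
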