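import Cfsg.Agent.C7.Defs
import Cfsg.Agent.H6.N6
import Cfsg.Agent.H6.R3
import Cfsg.Agent.O5.G5

set_option autoImplicit false
open Matrix Subgroup
open scoped MatrixGroups LinearAlgebra.Projectivization

namespace Cfsg.Agent.C7

namespace MitA

open H6.M3 hiding Mt

/-- one class of involutions and no normal subgroup of odd order -/
def Gd (Γ : Type*) [Group Γ] : Prop :=
  (∀ x y : Γ, orderOf x = 2 → orderOf y = 2 → IsConj x y) ∧
    ∀ N : Subgroup Γ, N.Normal → Odd (Nat.card N) → N = ⊥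

theorem Gd.of {Γ Δ : Type*} [Group Γ] [Group Δ] (h : Gd Δ) (e : Γ ≃* Δ) : Gd Γ := by
  refine ⟨fun x y hx hy => ?_, fun N hN ho => ?_⟩
  · simpa using e.symm.toMonoidHom.map_isConj
      (h.1 (e x) (e y) (by rw [e.orderOf_eq, hx]) (by rw [e.orderOf_eq, hy]))
  · exact (map_eq_bot_iff_of_injective _ (f := e.toMonoidHom) e.injective).1
      (h.2 _ (hN.map _ e.surjective) (by rwa [card_map_of_injective e.injective]))

theorem Gd.idx {Γ : Type*} [Group Γ] [Finite Γ] (hs : NS Γ) {L : Subgroup Γ} (h3 : L.index = 3)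
    (h : Gd L) : Gd Γ := by
  classical
  have := Fintype.ofFinite (Γ ⧸ L)
  have key : ∀ x : Γ, orderOf x = 2 → ∃ y : L, orderOf y = 2 ∧ IsConj x y := fun x hx => by
    obtain ⟨a, ha⟩ := Equiv.Perm.exists_fixed_point_of_prime (p := 2) (n := 1)
      (by rw [← Nat.card_eq_fintype_card, ← index_eq_card, h3]; decide)
      (σ := MulAction.toPermHom Γ (Γ ⧸ L) x) (by rw [← map_pow, pow_one, ← hx, pow_orderOf_eq_one, map_one])
    induction a using QuotientGroup.induction_on with
    | H g =>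
    have h1 : (x * g)⁻¹ * g ∈ L := QuotientGroup.eq.1 ha
    have h2 : g⁻¹ * x * g ∈ L := by simpa [mul_assoc] using L.inv_mem h1
    have h4 : IsConj x (g⁻¹ * x * g) := isConj_iff.2 ⟨g⁻¹, by simp⟩
    exact ⟨⟨_, h2⟩, by rw [← orderOf_coe, ← hx]; exact (SemiconjBy.orderOf_eq g (by simp [SemiconjBy, mul_assoc])), h4⟩
  refine ⟨fun x y hx hy => ?_, fun N hN ho => hs N hN ?_⟩
  · obtain ⟨a, ha, e⟩ := key x hx
    obtain ⟨b, hb, e'⟩ := key y hy
    exact e.trans ((L.subtype.map_isConj (h.1 a b ha hb)).trans e'.symm)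
  · have h1 := h.2 (N.subgroupOf L) inferInstance (ho.of_dvd_nat (by
      rw [← inf_subgroupOf_right, Nat.card_congr (subgroupOfEquivOfLe inf_le_right).toEquiv]
      exact card_dvd_of_le inf_le_left))
    have h2 : Nat.card N ≤ 3 := by
      rw [← h3, index_eq_card]
      refine Nat.card_le_card_of_injective (fun n => ((n : Γ) : Γ ⧸ L)) fun a b e => ?_
      have h4 : (⟨_, QuotientGroup.eq.1 e⟩ : L) ∈ N.subgroupOf L := (a⁻¹ * b).2
      rw [h1, mem_bot, Subtype.ext_iff] at h4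
      exact Subtype.ext (inv_mul_eq_one.1 h4)
    have h5 : Nat.card N ∣ 3 := by
      obtain ⟨k, hk⟩ := ho
      have : Nat.card N = 1 ∨ Nat.card N = 3 := by omega
      rcases this with e | e <;> simp [e]
    have : Fact (Nat.Prime 3) := ⟨Nat.prime_three⟩
    have := isCyclic_of_card_dvd_prime h5
    intro a ha b hb
    exact congrArg Subtype.val (mul_comm' (⟨a, ha⟩ : N) ⟨b, hb⟩)

variable {K : Type*} [Field K]

theorem no73 (h7 : (7 : K) ≠ 0) {G : Type*} [Group G] (f : G →* Matrix (Fin 2) (Fin 2) K)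
    (hf : ∀ g, g ∈ center G ↔ ∃ c : K, f g = c • 1) {d m : G ⧸ center G} (hd : orderOf d = 7)
    (hm : m * d * m⁻¹ = d ^ 2) : False := by
  induction d using QuotientGroup.induction_on with
  | H d =>
  induction m using QuotientGroup.induction_on with
  | H m =>
  have h1 : ¬ ∃ c : K, f d = c • 1 := fun h => by
    rw [(QuotientGroup.eq_one_iff d).2 ((hf d).2 h), orderOf_one] at hd; omega
  obtain ⟨e, he⟩ := (hf _).1 ((QuotientGroup.eq_one_iff (d ^ 7)).1 (by
    rw [QuotientGroup.mk_pow, ← hd, pow_orderOf_eq_one]))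
  obtain ⟨c, hc⟩ := (hf _).1 (QuotientGroup.eq.1 (show ((d ^ 2 : G) : G ⧸ center G) =
    (m * d * m⁻¹ : G) from hm.symm))
  have h2 : f m * f d * f m⁻¹ = c • f d ^ 2 := by
    rw [← map_mul, ← map_mul, ← map_pow, ← mul_one (f (d ^ 2)), ← mul_smul_comm, ← hc, ← map_mul,
      mul_inv_cancel_left]
  have h3 : f m⁻¹ * f m = 1 := by rw [← map_mul, inv_mul_cancel, map_one]
  have t1 := congrArg trace h2
  rw [trace_mul_cycle, h3, one_mul] at t1
  have d1 := congrArg det h2
  rw [det_mul, det_mul, mul_right_comm, ← det_mul, mul_eq_one_comm.1 h3, det_one, one_mul,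
    det_smul, det_pow] at d1
  have d0 : (f d).det ≠ 0 := fun e0 => by
    have := congrArg det (show f d * f d⁻¹ = 1 by rw [← map_mul, mul_inv_cancel, map_one])
    simp [e0] at this
  rw [map_pow] at he
  obtain ⟨a, b, x, y, hD⟩ : ∃ a b x y, f d = !![a, b; x, y] := ⟨_, _, _, _, eta_fin_two _⟩
  rw [hD] at h1 he t1 d1 d0
  have hu : (a + y) ^ 6 - 5 * (a + y) ^ 4 * (a * y - b * x) + 6 * (a + y) ^ 2 * (a * y - b * x) ^ 2
      - (a * y - b * x) ^ 3 = 0 := by
    by_contra hu
    have e00 := congrFun (congrFun he 0) 0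
    have e01 := congrFun (congrFun he 0) 1
    have e10 := congrFun (congrFun he 1) 0
    have e11 := congrFun (congrFun he 1) 1
    simp only [pow_succ, pow_zero, one_mul, mul_fin_two] at e00 e01 e10 e11
    simp at e00 e01 e10 e11
    have hb : b = 0 := (mul_eq_zero.1 (by linear_combination e01)).resolve_left hu
    have hx : x = 0 := (mul_eq_zero.1 (by linear_combination e10)).resolve_left hu
    have hy : a - y = 0 := (mul_eq_zero.1 (by linear_combination e00 - e11)).resolve_left hu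
    refine h1 ⟨a, ?_⟩
    rw [hb, hx, ← sub_eq_zero.1 hy]
    ext i j; fin_cases i <;> fin_cases j <;> simp
  simp only [pow_two, mul_fin_two, trace_smul, trace_fin_two_of, det_fin_two_of, smul_eq_mul,
    Fintype.card_fin] at t1 d1 d0
  have t2 : a + y = c * ((a + y) ^ 2 - 2 * (a * y - b * x)) := by linear_combination t1
  generalize a + y = t at *
  generalize a * y - b * x = δ at *
  have d2 : c ^ 2 * δ = 1 := mul_right_cancel₀ d0 (by linear_combination -d1)
  have h4 : (t ^ 2 - δ) * (t ^ 2 - 4 * δ) = 0 := by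
    have : t ^ 2 * δ = (t ^ 2 - 2 * δ) ^ 2 := by
      calc t ^ 2 * δ = (c * (t ^ 2 - 2 * δ)) ^ 2 * δ := by rw [← t2]
        _ = (c ^ 2 * δ) * (t ^ 2 - 2 * δ) ^ 2 := by ring
        _ = _ := by rw [d2, one_mul]
    linear_combination -this
  rcases mul_eq_zero.1 h4 with h | h
  · have : δ ^ 3 = 0 := by
      rw [← sub_eq_zero.1 h] at hu ⊢; linear_combination hu
    exact d0 (pow_eq_zero_iff (by omega) |>.1 this)
  · have : 7 * δ ^ 3 = 0 := by
      have e : t ^ 2 = 4 * δ := sub_eq_zero.1 h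
      linear_combination hu - (t ^ 4 - t ^ 2 * δ + 2 * δ ^ 2) * e
    exact d0 (pow_eq_zero_iff (by omega) |>.1 ((mul_eq_zero.1 this).resolve_left h7))

theorem sl_center {n : ℕ} (g : SL(n, K)) : g ∈ center SL(n, K) ↔ ∃ c : K, g.1 = c • 1 := by
  refine ⟨fun h => ?_, fun ⟨c, hc⟩ => mem_center_iff.2 fun y => Subtype.ext (by simp [hc])⟩
  obtain ⟨r, -, e⟩ := Matrix.SpecialLinearGroup.mem_center_iff.1 h
  exact ⟨r, e.symm.trans (smul_one_eq_diagonal r).symm⟩

theorem gl_center {n : ℕ} (g : GL (Fin n) K) :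
    g ∈ center (GL (Fin n) K) ↔ ∃ c : K, g.1 = c • 1 := by
  refine ⟨fun h => ?_, fun ⟨c, hc⟩ => mem_center_iff.2 fun y => Units.ext (by simp [hc])⟩
  obtain ⟨r, e⟩ := Matrix.GeneralLinearGroup.mem_center_iff_val_mem_range_scalar.1 h
  exact ⟨r, e.symm.trans (smul_one_eq_diagonal r).symm⟩

theorem cm {n : ℕ} (A B : SL(n, K)) : (A * B).1 = A.1 * B.1 := rfl

theorem mk_eq {n : ℕ} {A B : SL(n, K)} {c : K} (h : B.1 = c • A.1) :
    (A : PSL(n, K)) = (B : SL(n, K)) :=
  QuotientGroup.eq.2 ((sl_center _).2 ⟨c, by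
    rw [cm, h, mul_smul_comm, ← cm,
      inv_mul_cancel]; rfl⟩)

theorem conj_of {n : ℕ} {A P T : SL(n, K)} {c : K} (h : A.1 * P.1 = c • (P.1 * T.1)) :
    IsConj (T : PSL(n, K)) (A : SL(n, K)) := isConj_iff.2 ⟨(P : SL(n, K)), by
  rw [mul_inv_eq_iff_eq_mul]
  exact mk_eq (A := P * T) (B := A * P) h⟩

theorem sq_of {n : ℕ} {A : SL(n, K)} (h : orderOf (A : PSL(n, K)) = 2) :
    (∃ c : K, A.1 * A.1 = c • 1) ∧ ∀ c : K, A.1 ≠ c • 1 :=
  ⟨(sl_center (A * A)).1 ((QuotientGroup.eq_one_iff _).1 (by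
    rw [QuotientGroup.mk_mul, ← pow_two, ← h, pow_orderOf_eq_one])),
    fun c hc => by
      rw [(QuotientGroup.eq_one_iff _).2 ((sl_center A).2 ⟨c, hc⟩), orderOf_one] at h; omega⟩

theorem gd27 [Fintype K] (h : Fintype.card K = 7) : Gd PSL(2, K) := by
  have : Fact (Nat.Prime 7) := ⟨by norm_num⟩
  have : CharP K 7 := charP_of_card_eq_prime h
  have h7 : (7 : K) = 0 := by exact_mod_cast CharP.cast_eq_zero K 7
  have h6 : ∀ x : K, x ≠ 0 → x ^ 6 = 1 := fun x hx => by
    simpa [h] using FiniteField.pow_card_sub_one_eq_one x hx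
  have h2 : (2 : K) ≠ 0 := fun e => one_ne_zero (α := K) (by linear_combination h7 - 3 * e)
  refine ⟨fun x y hx hy => ?_, fun N hN ho => ?_⟩
  · have key : ∀ x : PSL(2, K), orderOf x = 2 →
        IsConj (QuotientGroup.mk (s := center SL(2, K)) ⟨!![0, -1; 1, 0], by simp [det_fin_two]⟩) x := by
      intro x hx
      induction x using QuotientGroup.induction_on with
      | H A =>
      obtain ⟨⟨e, he⟩, hn⟩ := sq_of hx
      have hd := A.2
      obtain ⟨a, b, c, d, hA⟩ : ∃ a b c d, A.1 = !![a, b; c, d] := ⟨_, _, _, _, eta_fin_two _⟩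
      rw [hA] at he hn hd
      have e00 := congrFun (congrFun he 0) 0
      have e01 := congrFun (congrFun he 0) 1
      have e10 := congrFun (congrFun he 1) 0
      have e11 := congrFun (congrFun he 1) 1
      simp at e00 e01 e10 e11
      rw [det_fin_two_of] at hd
      have ht : a + d = 0 := by
        by_contra ht
        have hb : b = 0 := (mul_eq_zero.1 (by linear_combination e01)).resolve_left ht
        have hc : c = 0 := (mul_eq_zero.1 (by linear_combination e10)).resolve_left ht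
        have hy : a - d = 0 := (mul_eq_zero.1 (by linear_combination e00 - e11)).resolve_left ht
        refine hn a ?_
        rw [hb, hc, ← sub_eq_zero.1 hy]
        ext i j; fin_cases i <;> fin_cases j <;> simp
      obtain rfl : d = -a := by linear_combination ht
      have hc : c ≠ 0 := by
        rintro rfl
        have := h6 a (by rintro rfl; simp at hd)
        exact h2 (by linear_combination (-1) * this - (a ^ 4 - a ^ 2 + 1) * hd)
      have h3 : (c ^ 3) ^ 2 = 1 := by rw [← pow_mul, h6 c hc]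
      refine conj_of (c := c ^ 3) (P := ⟨!![c, c ^ 4 * a; 0, c ^ 5], by
        rw [det_fin_two_of]; linear_combination h3⟩) ?_
      rw [hA]
      ext i j
      fin_cases i <;> fin_cases j <;> simp
      · linear_combination (-a * c) * h3
      · linear_combination (-c ^ 4) * hd
      · linear_combination (-c ^ 2) * h3
      · ring
    exact (key x hx).symm.trans (key y hy)
  · have := Matrix.ProjectiveSpecialLinearGroup.rank_two_simple (F := K) (by simp [h])
    refine hN.eq_bot_or_eq_top.resolve_right fun e => ?_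
    have h1 := O5.card_psl (E := K) (by omega) (by rw [h]; decide)
    rw [e, card_top] at ho
    rw [h] at h1
    obtain ⟨k, hk⟩ := ho
    omega

theorem gd3 [Finite K] (h2 : (2 : K) ≠ 0) : Gd PSL(3, K) := by
  classical
  let T : SL(3, K) := ⟨!![-1, 0, 0; 0, 1, 0; 0, 0, -1], by simp [det_fin_three]⟩
  refine ⟨fun x y hx hy => ?_, fun N hN ho => ?_⟩
  · have key : ∀ x : PSL(3, K), orderOf x = 2 → IsConj (T : PSL(3, K)) x := by
      intro x hx
      induction x using QuotientGroup.induction_on with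
      | H A =>
      obtain ⟨⟨e, he⟩, hn⟩ := sq_of hx
      have e3 : e ^ 3 = 1 := by simpa [A.2] using (congrArg det he).symm
      obtain ⟨B, hB⟩ : ∃ B, B = e • A.1 := ⟨_, rfl⟩
      have hA : A.1 = e ^ 2 • B := by rw [hB, smul_smul, ← pow_succ, e3, one_smul]
      have b2 : B * B = 1 := by
        rw [hB, smul_mul_smul_comm, he, smul_smul, ← pow_two, ← pow_succ, e3, one_smul]
      have bd : B.det = 1 := by simp [hB, A.2, e3]
      have bv : ∀ v, B *ᵥ B *ᵥ v = v := fun v => by rw [mulVec_mulVec, b2, one_mulVec]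
      obtain ⟨x, hx⟩ : ∃ x, x - B *ᵥ x ≠ 0 := by
        by_contra! h
        exact hn (e ^ 2) (by
          rw [hA, ext_iff_mulVec.2 fun v => (sub_eq_zero.1 (h v)).symm.trans (one_mulVec v).symm])
      obtain ⟨y, hy⟩ : ∃ y, y + B *ᵥ y ≠ 0 := by
        by_contra! h
        refine hn (-e ^ 2) ?_
        rw [hA, ext_iff_mulVec.2 fun v => (show B *ᵥ v = (-1 : H6.M3.Mt K) *ᵥ v by
          rw [neg_mulVec, one_mulVec]; exact eq_neg_of_add_eq_zero_right (h v))]
        simp
      have hw : B *ᵥ (x - B *ᵥ x) = -(x - B *ᵥ x) := by rw [mulVec_sub, bv, neg_sub]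
      have hu : B *ᵥ (y + B *ᵥ y) = y + B *ᵥ y := by rw [mulVec_add, bv, add_comm]
      generalize x - B *ᵥ x = w at *
      generalize y + B *ᵥ y = u at *
      obtain ⟨z, hz⟩ := exists_dot_ne (cross_ne_zero hy (v := w) fun c hc => hx (by
        rw [hc, mulVec_smul, hu] at hw
        have : (2 : K) • (c • u) = 0 := by rw [two_smul]; nth_rewrite 1 [hw]; exact neg_add_cancel _
        rw [hc]; exact (smul_eq_zero.1 this).resolve_left h2))
      rw [dotProduct_comm] at hz
      have h1 : (B *ᵥ z) ⬝ᵥ (u ⨯₃ w) = -1 := by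
        have := congrArg det (mul_cols B z u w)
        rw [det_mul, bd, one_mul, det_cols, det_cols, hz, hu, hw, map_neg, dotProduct_neg] at this
        linear_combination this
      refine conj_of (c := e ^ 2) (P := ⟨cols ((2 : K)⁻¹ • (z - B *ᵥ z)) u w, by
        rw [det_cols, smul_dotProduct, sub_dotProduct, hz, h1, smul_eq_mul]; field_simp; ring⟩) ?_
      rw [hA, smul_mul_assoc]
      congr 1
      simp only [T]
      rw [mul_cols, cols_mul, hu, hw, mulVec_smul, mulVec_sub, bv]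
      congr 1 <;> simp [smul_sub]
      abel
    exact (key x hx).symm.trans (key y hy)
  · by_contra hne
    have h0 : (![1, 0, 0] : Fin 3 → K) ≠ 0 := by simp
    have h1 : (![0, 1, 0] : Fin 3 → K) ≠ 0 := by simp
    set x := Projectivization.mk K _ h0
    set y := Projectivization.mk K _ h1
    have htr : MulAction.IsPretransitive N (ℙ K (Fin 3 → K)) :=
      MulAction.IsQuasiPreprimitive.isPretransitive_of_normal fun e => hne (by
        rw [eq_bot_iff]
        intro n hn
        exact (eq_of_smul_eq_smul (α := ℙ K (Fin 3 → K)) fun p => by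
          rw [one_smul]; exact (Set.eq_univ_iff_forall.1 e p) ⟨n, hn⟩))
    have tt : (T : PSL(3, K)) * T = 1 := by
      rw [← QuotientGroup.mk_mul, QuotientGroup.eq_one_iff, sl_center]
      exact ⟨1, by rw [cm]; simp [T, one_fin_three]⟩
    have hT : ∀ (v : Fin 3 → K) (hv : v ≠ 0) (c : K), T.1 *ᵥ v = c • v →
        (T : PSL(3, K)) • Projectivization.mk K v hv = Projectivization.mk K v hv :=
      fun v hv c e => (Projectivization.mk_eq_mk_iff' K _ _ _ hv).2 ⟨c, e.symm⟩
    have tx : (T : PSL(3, K)) • x = x := hT _ _ (-1) (by simp only [T, mv3, sv3, ev3]; simp)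
    have ty : (T : PSL(3, K)) • y = y := hT _ _ 1 (by simp only [T, mv3, sv3, ev3]; simp)
    have ti : (T : PSL(3, K))⁻¹ = T := inv_eq_of_mul_eq_one_left tt
    let S := {n : N // n • x = y}
    let σ : S → S := fun n => ⟨⟨T * n.1 * (T : PSL(3, K))⁻¹, hN.conj_mem _ n.1.2 _⟩, by
      have : (n.1 : PSL(3, K)) • x = y := n.2
      change (_ * _ * _ : PSL(3, K)) • x = y
      rw [mul_smul, mul_smul, ti, tx, this, ty]⟩
    have hσ : Function.Involutive σ := fun n => Subtype.ext (Subtype.ext (by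
      simp only [σ, ti]
      rw [← mul_assoc, ← mul_assoc, tt, one_mul, mul_assoc, tt, mul_one]))
    obtain ⟨n0, hn0⟩ := MulAction.exists_smul_eq N x y
    have hS : Nat.card S = Nat.card (MulAction.stabilizer N x) := Nat.card_congr
      ⟨fun n => ⟨n0⁻¹ * n.1, by rw [MulAction.mem_stabilizer_iff, mul_smul, n.2, ← hn0, inv_smul_smul]⟩,
        fun n => ⟨n0 * n.1, by rw [mul_smul, n.2, hn0]⟩, fun n => by simp, fun n => by simp⟩
    have := Fintype.ofFinite S
    obtain ⟨⟨⟨n, hn⟩, hn'⟩, e⟩ := Equiv.Perm.exists_fixed_point_of_prime (p := 2) (n := 1)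
      (by
        rw [← Nat.card_eq_fintype_card, hS, ← even_iff_two_dvd, Nat.not_even_iff_odd]
        exact ho.of_dvd_nat (card_subgroup_dvd_card _))
      (σ := hσ.toPerm) (by ext1 a; exact hσ a)
    have e1 : T * n * (T : PSL(3, K))⁻¹ = n := congrArg (fun s : S => (s.1 : PSL(3, K))) e
    induction n using QuotientGroup.induction_on with
    | H A =>
    obtain ⟨a, ha⟩ := (Projectivization.mk_eq_mk_iff' K _ _ _ h1).1 hn'
    have ha' : a • (![0, 1, 0] : Fin 3 → K) = A.1 *ᵥ ![1, 0, 0] := ha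
    obtain ⟨c, hc⟩ := (sl_center _).1 (QuotientGroup.eq.1 (show ((A * T : SL(3, K)) : PSL(3, K)) =
      (T * A : SL(3, K)) from (mul_inv_eq_iff_eq_mul.1 e1).symm))
    have hc3 : c ^ 3 = 1 := by
      have := ((A * T)⁻¹ * (T * A)).2
      rw [hc] at this; simpa using this
    have h3 : T.1 * A.1 = c • (A.1 * T.1) := by
      rw [← cm, ← cm, ← mul_one (A * T).1,
        ← mul_smul_comm, ← hc, ← cm, mul_inv_cancel_left]
    have h4 := congrArg (· *ᵥ (![1, 0, 0] : Fin 3 → K)) h3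
    have h5 : T.1 *ᵥ ![1, 0, 0] = -![1, 0, 0] := by simp only [T, mv3, nv3, ev3]; simp
    simp only [smul_mulVec, ← mulVec_mulVec, h5, mulVec_neg, ← ha'] at h4
    have h6 := congrFun h4 1
    have ha0 : a ≠ 0 := fun e => mulVec_ne_zero (A := A.1) (by simp [A.2]) h0 (by simp [← ha', e])
    simp [T] at h6
    have h7 : c = -1 := mul_right_cancel₀ ha0 (by linear_combination h6)
    rw [h7] at hc3
    exact h2 (by linear_combination -hc3)

end MitA

open MitA H6.M3

theorem mitA {F : Type*} [Field F] [Fintype F] {p : ℕ} (hF : FH F p) (hp : p ≠ 2) {Γ : Type*}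
    [Group Γ] [Finite Γ] (hs : NS Γ) {ρ : PR Γ F} (h : ρ.SLr) {d m : Γ} (hd : orderOf d = 7)
    (hm : m * d * m⁻¹ = d ^ 2 ∨ m * d * m⁻¹ = d ^ 4) :
    (∀ x y : Γ, orderOf x = 2 → orderOf y = 2 → IsConj x y) ∧
      ∀ N : Subgroup Γ, N.Normal → Odd (Nat.card N) → N = ⊥ := by
  obtain ⟨m, hm⟩ : ∃ m : Γ, m * d * m⁻¹ = d ^ 2 := by
    rcases hm with hm | hm
    · exact ⟨m, hm⟩
    · refine ⟨m * m, ?_⟩
      calc m * m * d * (m * m)⁻¹ = m * (m * d * m⁻¹) * m⁻¹ := by group
        _ = (m * d * m⁻¹) ^ 4 := by rw [conj_pow, hm]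
        _ = d ^ 2 := by rw [hm, ← pow_mul, ← pow_mod_orderOf, hd]
  obtain ⟨hpp, hc, hq⟩ := hF
  have : Fact p.Prime := ⟨hpp⟩
  have : Nontrivial Γ := ⟨d, 1, fun e => by rw [e, orderOf_one] at hd; omega⟩
  obtain ⟨α, hα, hq'⟩ : ∃ α, (α = 1 ∨ α = 3) ∧ Nat.card F = p ^ α := by
    rw [Nat.card_eq_fintype_card]
    rcases hq with h | h
    · exact ⟨1, Or.inl rfl, by rw [h.1, pow_one]⟩
    · exact ⟨3, Or.inr rfl, h.1⟩
  have hne : ∀ (K : Type) [Field K] [Fintype K] (r β l : ℕ), r.Prime → l.Prime → r ≠ l →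
      Fintype.card K = r ^ β → (l : K) ≠ 0 := fun K _ _ r β l hr hl hrl hK => by
    have : Fact r.Prime := ⟨hr⟩
    have := charP_of_card_eq_prime_pow hK
    rw [Ne, CharP.cast_eq_zero_iff K r, Nat.prime_dvd_prime_iff_eq hr hl]
    exact hrl
  have h7 : p ≠ 7 := by omega
  have n2 : ∀ (K : Type) [Field K], (7 : K) ≠ 0 → (Γ ≃* PSL(2, K)) → False := fun K _ hK e =>
    no73 hK (G := SL(2, K)) SpecialLinearGroup.coeMonoidHom sl_center (d := e d) (m := e m)
      (by rw [e.orderOf_eq, hd]) (by rw [← map_pow, ← hm]; simp)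
  rcases mitchell_odd p α hp hq' hs h with ⟨K, _, _, β, hK, -, ⟨e⟩⟩ | ⟨K, _, _, β, -, hb, -⟩ |
    ⟨K, _, _, β, hK, -, -, L, hL, ⟨e⟩⟩ | ⟨K, _, _, β, -, -, hb, -⟩ |
    ⟨K, _, _, β, hK, -, -, ⟨⟨e⟩⟩ | ⟨⟨e⟩⟩⟩ | ⟨-, K, _, _, hK, ⟨e⟩⟩ | ⟨-, K, _, _, hK, ⟨e⟩⟩ |
    ⟨h5, -⟩ | ⟨-, ⟨e⟩⟩
  · exact (gd3 (by exact_mod_cast hne K p β 2 hpp Nat.prime_two hp hK)).of e
  · have := (dvd_mul_right 2 β).trans hb; omega
  · exact ((gd3 (by exact_mod_cast hne K p β 2 hpp Nat.prime_two hp hK)).of e).idx hs hL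
  · have := (dvd_mul_right 6 β).trans hb; omega
  · exact (n2 K (by exact_mod_cast hne K p β 7 hpp (by norm_num) h7 hK) e).elim
  · exact (no73 (by exact_mod_cast hne K p β 7 hpp (by norm_num) h7 hK) (G := GL (Fin 2) K)
      (Units.coeHom _) gl_center (d := e d) (m := e m)
      (by rw [e.orderOf_eq, hd]) (by rw [← map_pow, ← hm]; simp)).elim
  · exact (n2 K (by exact_mod_cast hne K 5 1 7 (by norm_num) (by norm_num) (by norm_num) hK) e).elim
  · exact (gd27 hK).of e
  · omega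
  · have := orderOf_dvd_natCard d
    rw [hd, Nat.card_congr e.toEquiv, card_a6] at this
    omega

end Cfsg.Agent.C7
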